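import Mathlib

/-! Large groups of degree six. -/

set_option autoImplicit false

namespace Cfsg.Agent.L0.R660

theorem rec6 {G Ω : Type*} [Group G] [Finite G] [Finite Ω] [MulAction G Ω] [FaithfulSMul G Ω]
    (hΩ : Nat.card Ω = 6) (h : 360 ≤ Nat.card G) :
    Nonempty (G ≃* alternatingGroup (Fin 6)) ∨ Nonempty (G ≃* Equiv.Perm (Fin 6)) := by
  let e : Ω ≃ Fin 6 := Finite.equivFinOfCardEq hΩ
  let π : G →* Equiv.Perm (Fin 6) := e.permCongrHom.toMonoidHom.comp (MulAction.toPermHom G Ω)
  have hi : Function.Injective π := e.permCongrHom.injective.comp MulAction.toPerm_injective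
  have h1 := π.range.index_mul_card
  rw [← Nat.card_congr (MonoidHom.ofInjective hi).toEquiv, Nat.card_perm, Nat.card_fin] at h1
  have h2 : π.range.index = 1 ∨ π.range.index = 2 := by
    have h3 : π.range.index * 360 ≤ 720 := (Nat.mul_le_mul_left _ h).trans h1.le
    have h4 : π.range.index ≠ 0 := Subgroup.FiniteIndex.index_ne_zero
    omega
  rcases h2 with h2 | h2
  · exact Or.inr ⟨MulEquiv.ofBijective π ⟨hi, MonoidHom.range_eq_top.1 (Subgroup.index_eq_one.1 h2)⟩⟩
  · exact Or.inl ⟨(MonoidHom.ofInjective hi).trans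
      (MulEquiv.subgroupCongr (Equiv.Perm.eq_alternatingGroup_of_index_eq_two h2))⟩

end Cfsg.Agent.L0.R660
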