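import Cfsg.Agent.H2.M2

/-! Recognition of `PSL₂(11)`. -/

set_option autoImplicit false
set_option linter.unusedSectionVars false

namespace Cfsg.Agent.L0.R660

open Subgroup OnePoint
open scoped MatrixGroups

instance fact11 : Fact (Nat.Prime 11) := ⟨by norm_num⟩

/-- discrete logarithm table -/
def lg11 (x : ZMod 11) : ℕ := [0, 0, 0, 4, 1, 2, 4, 3, 1, 3, 2].getD x.val 0

/-- the candidate map -/
def S11 (φ s t x : ZMod 11) : ZMod 11 := φ ^ lg11 x * if x = 4 ^ lg11 x then s else t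

set_option synthInstance.maxSize 2000 in
theorem dec11 : ∀ φ : ZMod 11, φ ^ 5 = 1 → ∀ s, s ≠ 0 → ∀ t, t ≠ 0 → ∀ c, S11 φ s t c + s = 0 →
    ∀ u, u ^ 5 = 1 → (∀ x, x ≠ 0 → S11 φ s t x + 1 ≠ 0 →
      S11 φ s t (S11 φ s t x + 1) = S11 φ s t (u * x + c) + s) →
    (∃ r, r * r = -s) ∧ ∀ x, x ≠ 0 → S11 φ s t x * x = s := by
  decide +kernel

theorem lg11_spec : ∀ x : ZMod 11, x ≠ 0 → x = 4 ^ lg11 x * if x = 4 ^ lg11 x then 1 else 2 := by decide

/-- the action on the projective line -/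
noncomputable def ρ11 : SL(2, ZMod 11) →* Equiv.Perm (OnePoint (ZMod 11)) :=
  (MulAction.toPermHom (GL (Fin 2) (ZMod 11)) _).comp Matrix.SpecialLinearGroup.toGL

theorem ρ11_infty (M : SL(2, ZMod 11)) :
    ρ11 M ∞ = if M 1 0 = 0 then ∞ else (M 0 0 / M 1 0 : ZMod 11) := smul_infty_eq_ite _

theorem ρ11_some (M : SL(2, ZMod 11)) (k : ZMod 11) : ρ11 M k =
    if M 1 0 * k + M 1 1 = 0 then ∞ else ((M 0 0 * k + M 0 1) / (M 1 0 * k + M 1 1) : ZMod 11) :=
  smul_some_eq_ite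

theorem mem_ρ11 {σ : Equiv.Perm (OnePoint (ZMod 11))} (a b c d : ZMod 11) (h : a * d - b * c = 1)
    (h1 : σ ∞ = if c = 0 then ∞ else (a / c : ZMod 11)) (h2 : ∀ k : ZMod 11,
      σ k = if c * k + d = 0 then ∞ else ((a * k + b) / (c * k + d) : ZMod 11)) : σ ∈ ρ11.range :=
  ⟨⟨!![a, b; c, d], by simpa [Matrix.det_fin_two] using h⟩, Equiv.ext fun p => by
    cases p with
    | infty => exact (ρ11_infty _).trans h1.symm
    | coe x => exact (ρ11_some _ _).trans (h2 x).symm⟩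

theorem range_le {G : Type*} [Group G] (π : G →* Equiv.Perm (OnePoint (ZMod 11)))
    (tr : ∃ g, π g ∞ ≠ ∞) (Y : ZMod 11 → G) (y1 : ∀ k, π (Y k) ∞ = ∞)
    (y2 : ∀ k x : ZMod 11, π (Y k) x = ↑(x + k))
    (af : ∀ g, π g ∞ = ∞ → ∃ u c : ZMod 11, u ^ 5 = 1 ∧ ∀ x : ZMod 11, π g x = ↑(u * x + c))
    (h : G) (h1 : π h ∞ = ∞) (h2 : ∀ x : ZMod 11, π h x = ↑(4 * x)) : π.range ≤ ρ11.range := by
  have A : ∀ g, π g ∞ = ∞ → π g ∈ ρ11.range := fun g hg => by
    obtain ⟨u, c, e1, e2⟩ := af g hg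
    obtain ⟨r, r0, rfl⟩ : ∃ r, r ≠ 0 ∧ r * r = u := by clear e2; revert u; decide
    exact mem_ρ11 r (c / r) 0 (1 / r) (by simp [r0]) (by simp [hg]) fun x => by
      simp [e2, r0, add_mul, mul_right_comm]
  have so : ∀ p : OnePoint (ZMod 11), p ≠ ∞ → ∃ x : ZMod 11, p = x := fun p hp => by
    cases p with
    | infty => exact absurd rfl hp
    | coe x => exact ⟨x, rfl⟩
  obtain ⟨w, w1, w2⟩ : ∃ w, π w ∞ = (0 : ZMod 11) ∧ π w (0 : ZMod 11) = ∞ := by
    obtain ⟨g, hg⟩ := tr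
    obtain ⟨c, hc⟩ := so _ hg
    obtain ⟨d, hd⟩ := so (π g⁻¹ ∞) fun e => hg (by conv_lhs => rw [← e]; simp)
    exact ⟨Y (-c) * g * Y d, by simp [y1, hc, y2], by simp [y2, ← hd, y1]⟩
  have w3 : π w⁻¹ (0 : ZMod 11) = ∞ := by simp [← w1]
  have w4 : π w⁻¹ ∞ = (0 : ZMod 11) := by simp [← w2]
  obtain ⟨s, hs⟩ : ∃ s : ZMod 11 → ZMod 11, ∀ x : ZMod 11, x ≠ 0 → π w x = s x ∧ s x ≠ 0 := by
    refine (Classical.skolem (p := fun x s : ZMod 11 => x ≠ 0 → π w x = s ∧ s ≠ 0)).1 fun x => ?_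
    by_cases hx : x = 0
    · exact ⟨0, fun h => absurd hx h⟩
    obtain ⟨s, hs⟩ := so (π w x) fun e => hx (by simpa using (π w).injective (e.trans w2.symm))
    exact ⟨s, fun _ => ⟨hs, fun e => coe_ne_infty x ((π w).injective (hs.trans (e ▸ w1.symm)))⟩⟩
  obtain ⟨φ, c, f1, f2⟩ := af (w * h * w⁻¹) (by simp only [map_mul, Equiv.Perm.mul_apply, w4, h2,
    mul_zero, w2])
  obtain rfl : c = 0 := by
    have := f2 0
    simp only [map_mul, Equiv.Perm.mul_apply, w3, h1, w1] at this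
    simpa using this.symm
  have s1 : ∀ (k : ℕ) (x : ZMod 11), x ≠ 0 → s (4 ^ k * x) = φ ^ k * s x := fun k x hx => by
    induction k with
    | zero => simp
    | succ k ih =>
      have n0 : 4 ^ k * x ≠ 0 := mul_ne_zero (pow_ne_zero _ (by decide)) hx
      have := f2 (s (4 ^ k * x))
      rw [← (hs _ n0).1, ← Equiv.Perm.mul_apply, ← map_mul, inv_mul_cancel_right, map_mul,
        Equiv.Perm.mul_apply, h2, (hs _ (mul_ne_zero (by decide) n0)).1, ih] at this
      rw [pow_succ', pow_succ', mul_assoc, mul_assoc]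
      simpa using this
  have s2 : ∀ x, x ≠ 0 → S11 φ (s 1) (s 2) x = s x := fun x hx => by
    conv_rhs => rw [lg11_spec x hx, s1 _ _ (by split_ifs <;> decide)]
    rw [S11, apply_ite s]
  obtain ⟨u, c, u1, u2⟩ := af (w⁻¹ * Y (-s 1) * w * Y 1 * w) (by
    simp [w1, y2, (hs 1 one_ne_zero).1, -map_inv, w3])
  have u3 : ∀ x : ZMod 11, π w (π (Y 1) (π w x)) = π (Y (s 1)) (π w ↑(u * x + c)) := fun x => by
    rw [← u2]
    simp only [map_mul, Equiv.Perm.mul_apply, map_inv, Equiv.Perm.coe_inv, Equiv.apply_symm_apply]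
    generalize π w (π (Y 1) (π w x)) = p
    cases p <;> simp [y1, y2]
  have c0 : c ≠ 0 := fun e => by simpa [w1, w2, y1, e] using u3 0
  obtain ⟨⟨r, hr⟩, d2⟩ := dec11 φ f1 _ (hs 1 one_ne_zero).2 _ (hs 2 (by decide)).2 c (by
    have := u3 0
    simp only [w1, w2, y1, mul_zero, zero_add, (hs c c0).1, y2] at this
    rw [s2 c c0]
    simpa using this.symm) u u1 fun x hx e => by
      have := u3 x
      rw [s2 x hx] at e ⊢
      rw [(hs x hx).1, y2, (hs _ e).1] at this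
      have n0 : u * x + c ≠ 0 := fun e => by simp [e, w2, y1] at this
      rw [(hs _ n0).1, y2] at this
      rw [s2 _ e, s2 _ n0]
      simpa using this
  have r0 : r ≠ 0 := fun e => (hs 1 one_ne_zero).2 (by simpa [e] using hr)
  have B : π w ∈ ρ11.range := by
    refine mem_ρ11 0 r (-1 / r) 0 (by simp [r0, neg_div]) (by simp [w1, r0]) fun x => ?_
    by_cases hx : x = 0
    · simp [hx, w2]
    have := d2 x hx
    rw [s2 x hx] at this
    rw [(hs x hx).1, if_neg (by simp [r0, hx])]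
    congr 1
    rw [add_zero]
    field_simp
    linear_combination hr + this
  rintro _ ⟨g, rfl⟩
  by_cases hg : π g ∞ = ∞
  · exact A g hg
  obtain ⟨d, hd⟩ := so _ hg
  have := mul_mem (mul_mem (A _ (y1 d)) B) (A (w⁻¹ * (Y d)⁻¹ * g) (by
    rw [map_mul, map_mul, Equiv.Perm.mul_apply, Equiv.Perm.mul_apply, hd, ← w3]
    congr 1
    rw [map_inv, Equiv.Perm.inv_eq_iff_eq, y2, zero_add]))
  simpa [mul_assoc] using this

theorem iso11 {G : Type*} [Group G] [Finite G] (π : G →* Equiv.Perm (OnePoint (ZMod 11)))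
    (hi : Function.Injective π) (hc : Nat.card G = 660) (h : π.range ≤ ρ11.range) :
    Nonempty (G ≃* PSL(2, ZMod 11)) := by
  let ρ : PSL(2, ZMod 11) →* Equiv.Perm (OnePoint (ZMod 11)) := QuotientGroup.lift _ ρ11
    fun M hM => by
      obtain ⟨r, r1, r2⟩ := Matrix.SpecialLinearGroup.mem_center_iff.1 hM
      have r0 : r ≠ 0 := fun e => by simp [e] at r1
      have e : ∀ i j, M i j = Matrix.scalar (Fin 2) r i j := fun i j => by rw [r2]
      refine Equiv.ext fun p => ?_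
      cases p <;> simp [ρ11_infty, ρ11_some, e, r0]
  have h1 : π.range ≤ ρ.range := fun x hx => by
    obtain ⟨M, rfl⟩ := h hx
    exact ⟨M, rfl⟩
  have h2 := card_le_of_le h1
  rw [← Nat.card_congr (MonoidHom.ofInjective hi).toEquiv, hc] at h2
  have h3 : Nat.card PSL(2, ZMod 11) ≤ 660 := by
    have h4 := card_eq_card_quotient_mul_card_subgroup (center SL(2, ZMod 11))
    have h5 : 1 < Nat.card (center SL(2, ZMod 11)) := (one_lt_card_iff_ne_bot _).2 fun e => by
      have : (-1 : SL(2, ZMod 11)) ∈ center _ := mem_center_iff.2 (by simp)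
      rw [e] at this
      exact absurd (congrArg (· 0 0) (mem_bot.1 this)) (by decide)
    rw [H2.card_SL2, Nat.card_zmod] at h4
    have := Nat.mul_le_mul_left (Nat.card (SL(2, ZMod 11) ⧸ center SL(2, ZMod 11))) h5
    show Nat.card (SL(2, ZMod 11) ⧸ center SL(2, ZMod 11)) ≤ 660
    omega
  have h4 := ρ.rangeRestrict_surjective.bijective_of_nat_card_le (h3.trans h2)
  exact ⟨((MonoidHom.ofInjective hi).trans (MulEquiv.subgroupCongr (eq_of_le_of_card_ge h1 (by
    rw [← Nat.card_congr (MonoidHom.ofInjective hi).toEquiv, hc, ← Nat.card_eq_of_bijective _ h4]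
    exact h3)))).trans (MulEquiv.ofBijective _ h4).symm⟩

theorem rec660' {G : Type*} [Group G] [Finite G] (hc : Nat.card G = 660)
    {y : G} (oy : orderOf y = 11) (cz11 : ∀ g, g * y = y * g → g ∈ zpowers y)
    (hn : ∀ N : Subgroup G, N.Normal → N ≠ ⊥ → 11 ∣ Nat.card N) : Nonempty (G ≃* PSL(2, ZMod 11)) := by
  let ι : Multiplicative (ZMod 11) →* G := MonoidHom.mk' (fun k => y ^ k.toAdd.val) fun k l => by
    rw [toAdd_mul, ZMod.val_add, ← pow_add]
    conv_rhs => rw [← pow_mod_orderOf, oy]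
  let Y : ZMod 11 → G := fun k => ι (Multiplicative.ofAdd k)
  have Ya : ∀ k l, Y (k + l) = Y k * Y l := fun k l => map_mul ι _ _
  have Yp : ∀ k (n : ℕ), Y k ^ n = Y (n * k) := fun k n => by
    simp only [Y, ← map_pow, ← ofAdd_nsmul, nsmul_eq_mul]
  have Yi : Function.Injective Y := fun k l h => ZMod.val_injective 11 (pow_injOn_Iio_orderOf
    ((ZMod.val_lt k).trans_eq oy.symm) ((ZMod.val_lt l).trans_eq oy.symm) h)
  have Ym : ∀ k, Y k ∈ zpowers y := fun k => npow_mem_zpowers _ _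
  have Ye : ∀ g ∈ zpowers y, ∃ k, Y k = g := fun g h => by
    obtain ⟨n, rfl⟩ := (mem_powers_iff_mem_zpowers.2 h)
    exact ⟨n * 1, by rw [← Yp, show Y 1 = y from pow_one y]⟩
  have Yc : ∀ g u, g * Y 1 * g⁻¹ = Y u → ∀ s, g * Y s * g⁻¹ = Y (u * s) := fun g u h s => by
    rw [← ZMod.natCast_zmod_val s, mul_comm u, ← Yp, ← h, conj_pow, Yp, mul_one]
  have Yn : ∀ g u, g * Y 1 * g⁻¹ = Y u → ∀ n : ℕ, g ^ n * Y 1 * (g ^ n)⁻¹ = Y (u ^ n) :=
    fun g u h n => by
      induction n with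
      | zero => simp
      | succ n ih => rw [pow_succ', pow_succ', ← Yc g u h, ← ih]; group
  have cy : Nat.card (zpowers y) = 11 := by rw [Nat.card_zpowers, oy]
  let Q : Sylow 11 G := Sylow.ofCard (zpowers y) (by
    rw [cy, hc, show 660 = 11 ^ 1 * 60 from rfl, Nat.factorization_mul (by norm_num) (by norm_num),
      fact11.1.factorization_pow, Finsupp.add_apply,
      Nat.factorization_eq_zero_of_not_dvd (n := 60) (by norm_num)]
    simp)
  have hQ : (Q : Subgroup G) = zpowers y := rfl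
  have nu0 : ∀ g ∈ normalizer (Q : Set G), ∃ u, g * Y 1 * g⁻¹ = Y u := fun g hg => by
    obtain ⟨u, hu⟩ := Ye _ ((mem_normalizer_iff.1 hg _).1 (Ym 1))
    exact ⟨u, hu.symm⟩
  have key0 : ∀ h u, h * Y 1 * h⁻¹ = Y u → ∀ p : ℕ, p.Prime → p ≠ 11 → orderOf h = p → u ^ p = 1 ∧ u ≠ 1 :=
    fun h u u1 p hp hd h3 => by
    have := Yn h u u1 p
    rw [← h3, pow_orderOf_eq_one, h3] at this
    refine ⟨(Yi (by simpa using this)).symm, ?_⟩
    rintro rfl
    have : h ∈ zpowers y := cz11 h (by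
      rw [show Y 1 = y from pow_one y] at u1
      exact mul_inv_eq_iff_eq_mul.1 u1)
    have h4 := orderOf_dvd_of_mem_zpowers this
    rw [h3, oy] at h4
    exact hd ((Nat.prime_dvd_prime_iff_eq hp fact11.1).1 h4)
  have c8 : Nat.card (Sylow 11 G) = 12 := by
    have h1 := card_sylow_modEq_one 11 G
    have h2 := Q.card_dvd_index
    have h3 := (zpowers y).index_mul_card
    rw [cy] at h3
    rw [hQ, show (zpowers y).index = 60 by omega] at h2
    have h4 : Nat.card (Sylow 11 G) ≠ 1 := fun e => by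
      have := (Nat.card_eq_one_iff_unique.1 e).1
      have hN := Q.normal_of_subsingleton
      have := Fact.mk Nat.prime_three
      obtain ⟨h, h3⟩ := exists_prime_orderOf_dvd_card' (G := G) 3 (by rw [hc]; norm_num)
      obtain ⟨u, u1⟩ := nu0 h ((normalizer_eq_top (H := (Q : Subgroup G))).ge (mem_top h))
      obtain ⟨u2, u3⟩ := key0 h u u1 3 Nat.prime_three (by norm_num) h3
      exact u3 ((show ∀ u : ZMod 11, u ^ 3 = 1 → u = 1 by decide) u u2)
    exact (show ∀ n ≤ 60, n ≡ 1 [MOD 11] → n ∣ 60 → n ≠ 1 → n = 12 by decide +kernel) _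
      (Nat.le_of_dvd (by norm_num) h2) h1 h2 h4
  have cN : Nat.card (normalizer (Q : Set G)) = 55 := by
    have := (normalizer (Q : Set G)).index_mul_card
    rw [← Q.card_eq_index_normalizer, c8] at this
    omega
  have nu : ∀ g ∈ normalizer (Q : Set G), ∃ u, g * Y 1 * g⁻¹ = Y u ∧ u ^ 5 = 1 := fun g hg => by
    obtain ⟨u, hu⟩ := Ye _ ((mem_normalizer_iff.1 hg _).1 (Ym 1))
    have := Yn g u hu.symm 55
    rw [show g ^ 55 = 1 from congrArg Subtype.val (cN ▸ pow_card_eq_one' (x := (⟨g, hg⟩ :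
      normalizer (Q : Set G))))] at this
    exact ⟨u, hu.symm, (show ∀ u : ZMod 11, 1 = u ^ 55 → u ^ 5 = 1 by decide +kernel) u (Yi (by simpa using this))⟩
  have f1 : ∀ k, Y k • Q = Q := fun k => Sylow.smul_eq_iff_mem_normalizer.2 (le_normalizer (Ym k))
  have f2 : ∀ k, k ≠ 0 → ∀ P : Sylow 11 G, Y k • P = P → P = Q := fun k hk P e => by
    refine Sylow.ext (Q.is_maximal' P.isPGroup' (Q.isPGroup'.sylow_mem_fixedPoints_iff.1 ?_))
    rintro ⟨x, hx⟩
    obtain ⟨l, rfl⟩ := Ye _ hx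
    have := pow_mem (MulAction.mem_stabilizer_iff.2 e) (l / k).val
    rwa [Yp, ZMod.natCast_zmod_val, div_mul_cancel₀ _ hk] at this
  have : Nontrivial (Sylow 11 G) := Finite.one_lt_card_iff_nontrivial.1 (by omega)
  obtain ⟨P, hP⟩ := exists_ne Q
  have f3 : ∀ g : G, g • Q = Q → g • P ≠ Q := fun g h e => hP (smul_left_cancel g (e.trans h.symm))
  let e : OnePoint (ZMod 11) ≃ Sylow 11 G := Equiv.ofBijective
    (fun p => p.elim Q fun k => Y k • P) ((Nat.bijective_iff_injective_and_card _).2 ⟨by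
      rintro (_ | k) (_ | l) h
      · rfl
      · exact absurd h.symm (f3 _ (f1 l))
      · exact absurd h (f3 _ (f1 k))
      by_contra hn
      refine hP (f2 (-l + k) (fun e => hn (by rw [neg_add_eq_zero.1 e])) P ?_)
      rw [Ya, mul_smul, show Y (-l) = (Y l)⁻¹ from map_inv ι _, inv_smul_eq_iff]
      exact h, by rw [c8]; exact Nat.card_eq_fintype_card (α := Option (ZMod 11))⟩)
  let π : G →* Equiv.Perm (OnePoint (ZMod 11)) :=
    e.symm.permCongrHom.toMonoidHom.comp (MulAction.toPermHom G _)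
  have p1 : ∀ g p r, π g p = r ↔ g • e p = e r := fun g p r => e.symm_apply_eq
  have p2 : ∀ g, π g ∞ = ∞ ↔ g ∈ normalizer (Q : Set G) := fun g =>
    (p1 _ _ _).trans Sylow.smul_eq_iff_mem_normalizer
  have af : ∀ g u, g * Y 1 * g⁻¹ = Y u → π g ∞ = ∞ →
      ∃ c : ZMod 11, ∀ x : ZMod 11, π g x = ↑(u * x + c) := fun g u h1 h2 => by
    obtain ⟨p, hp⟩ := e.surjective (g • P)
    cases p with
    | infty => exact absurd hp.symm (f3 g ((p1 _ _ _).1 h2))
    | coe c =>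
      refine ⟨c, fun x => (p1 _ _ _).2 (show g • Y x • P = Y _ • P from ?_)⟩
      rw [Ya, mul_smul, show Y c • P = g • P from hp, ← Yc g u h1 x, smul_smul, smul_smul,
        inv_mul_cancel_right]
  have y1 : ∀ k, π (Y k) ∞ = ∞ := fun k => (p1 _ _ _).2 (f1 k)
  have y2 : ∀ k x : ZMod 11, π (Y k) x = ↑(x + k) := fun k x => (p1 _ _ _).2
    (show Y k • Y x • P = Y _ • P by rw [smul_smul, ← Ya, add_comm])
  obtain ⟨g, hg⟩ := MulAction.exists_smul_eq G Q P
  have tr : π g ∞ ≠ ∞ := fun h => hP (hg.symm.trans ((p1 _ _ _).1 h))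
  obtain ⟨h, h0, hh⟩ : ∃ h ∈ normalizer (Q : Set G), h * Y 1 * h⁻¹ = Y 4 := by
    have := Fact.mk Nat.prime_five
    obtain ⟨⟨h, h0⟩, h3⟩ := exists_prime_orderOf_dvd_card' (G := normalizer (Q : Set G)) 5
      (by rw [cN]; norm_num)
    rw [orderOf_mk] at h3
    obtain ⟨u, u1⟩ := nu0 h h0
    obtain ⟨u2, u3⟩ := key0 h u u1 5 Nat.prime_five (by norm_num) h3
    obtain ⟨k, hk⟩ := (show ∀ u : ZMod 11, u ^ 5 = 1 → u ≠ 1 → ∃ k < 5, u ^ k = 4 by decide) u u2 u3
    exact ⟨h ^ k, pow_mem h0 k, by rw [← hk.2, Yn h u u1]⟩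
  have h1 := (p2 h).2 h0
  obtain ⟨c, h2⟩ := af h 4 hh h1
  have hi : Function.Injective π := (MonoidHom.ker_eq_bot_iff _).1 (by
    by_contra e
    obtain ⟨⟨z, z0⟩, z1⟩ := exists_prime_orderOf_dvd_card' (G := π.ker) 11 (hn _ π.normal_ker e)
    rw [orderOf_mk] at z1
    have z2 : π z = 1 := z0
    obtain ⟨u, u1, u2⟩ := nu z ((p2 z).1 (by rw [z2]; rfl))
    have u3 := Yn z u u1 11
    rw [show z ^ 11 = 1 from z1 ▸ pow_orderOf_eq_one z] at u3
    have u4 : u = 1 := (show ∀ u : ZMod 11, 1 = u ^ 11 → u = 1 by decide) u (Yi (by simpa using u3))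
    subst u4
    obtain ⟨k, rfl⟩ := Ye z (cz11 z (by
      rw [show Y 1 = y from pow_one y] at u1
      exact mul_inv_eq_iff_eq_mul.1 u1))
    have := y2 k 0
    rw [z2] at this
    have k0 : k = 0 := by simpa using this.symm
    rw [k0, show Y 0 = 1 from map_one ι, orderOf_one] at z1
    omega)
  refine iso11 π hi hc (range_le π ⟨g, tr⟩ Y y1 y2 (fun g hg => ?_)
    (Y (-c) * h) (by simp [h1, y1]) fun x => by simp [h2, y2])
  obtain ⟨u, hu, u3⟩ := nu g ((p2 g).1 hg)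
  obtain ⟨c, hc⟩ := af g u hu hg
  exact ⟨u, c, u3, hc⟩

/-- A faithful 2-transitive group of degree 11 and order 660 is `PSL₂(11)`. -/
theorem rec660 {G Ω : Type*} [Group G] [Finite G] [Fintype Ω] [MulAction G Ω] [FaithfulSMul G Ω]
    (h2 : MulAction.IsMultiplyPretransitive G Ω 2) (hΩ : Fintype.card Ω = 11) (hG : Nat.card G = 660) :
    Nonempty (G ≃* Matrix.ProjectiveSpecialLinearGroup (Fin 2) (ZMod 11)) := by
  have hp := MulAction.isPreprimitive_of_is_two_pretransitive h2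
  obtain ⟨y, oy⟩ := exists_prime_orderOf_dvd_card' (G := G) 11 (by rw [hG]; norm_num)
  have mv : ∀ g : G, g ≠ 1 → ∃ a : Ω, g • a ≠ a := fun g hg => by
    by_contra h
    push Not at h
    exact hg (FaithfulSMul.eq_of_smul_eq_smul (α := Ω) fun a => by rw [h a, one_smul])
  have hc : Nat.card Ω = 11 := by rw [Nat.card_eq_fintype_card, hΩ]
  obtain ⟨a, ha⟩ := mv y (fun e => by simp [e] at oy)
  have orb : ∀ b : Ω, ∃ z ∈ zpowers y, z • a = b := by
    have h1 := (MulAction.stabilizer (zpowers y) a).index_mul_card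
    rw [Nat.card_zpowers, oy, MulAction.index_stabilizer] at h1
    have h3 : (MulAction.orbit (zpowers y) a).ncard = 11 := by
      rcases (Nat.dvd_prime fact11.1).1 (Dvd.intro _ h1) with e | e
      · exfalso
        obtain ⟨c, hc⟩ := Set.ncard_eq_one.1 e
        have e1 : a ∈ MulAction.orbit (zpowers y) a := MulAction.mem_orbit_self a
        have e2 : y • a ∈ MulAction.orbit (zpowers y) a := ⟨⟨y, mem_zpowers y⟩, rfl⟩
        rw [hc] at e1 e2
        exact ha (e2.trans e1.symm)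
      · exact e
    have h4 : MulAction.orbit (zpowers y) a = Set.univ :=
      Set.eq_of_subset_of_ncard_le (Set.subset_univ _) (by rw [Set.ncard_univ, hc, h3])
    intro b
    obtain ⟨z, hz⟩ : b ∈ MulAction.orbit (zpowers y) a := h4 ▸ Set.mem_univ b
    exact ⟨z, z.2, hz⟩
  refine rec660' hG oy (fun g hg => ?_) fun N hN hb => ?_
  · obtain ⟨z, z1, z2⟩ := orb (g • a)
    have : z = g := FaithfulSMul.eq_of_smul_eq_smul (α := Ω) fun b => by
      obtain ⟨w, w1, rfl⟩ := orb b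
      obtain ⟨k, rfl⟩ := mem_zpowers_iff.1 w1
      obtain ⟨l, rfl⟩ := mem_zpowers_iff.1 z1
      rw [smul_smul, smul_smul, (Commute.zpow_zpow_self y l k).eq, (Commute.zpow_right hg k).eq, mul_smul, mul_smul, z2]
    exact this ▸ z1
  · obtain ⟨⟨g, g0⟩, g1⟩ := (nontrivial_iff_exists_ne (1 : N)).1 ((nontrivial_iff_ne_bot N).2 hb)
    obtain ⟨b, hb⟩ := mv g fun e => g1 (Subtype.ext e)
    have ht : MulAction.IsPretransitive N Ω :=
      MulAction.IsQuasiPreprimitive.isPretransitive_of_normal (G := G) fun e =>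
        hb ((e ▸ Set.mem_univ b : b ∈ MulAction.fixedPoints N Ω) ⟨g, g0⟩)
    have := MulAction.index_stabilizer_of_transitive N b
    rw [hc] at this
    exact this ▸ (MulAction.stabilizer N b).index_dvd_card

end Cfsg.Agent.L0.R660
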